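import Cfsg.Agent.Lib.U3Sylow.Order320
import Cfsg.Agent.Lib.AutPSU.Levi

/-!
The centralizer of a transvection in `PSU_3(4)`.
-/

set_option autoImplicit false

namespace Cfsg.Agent.Lib.U3Sylow

open Matrix Cfsg.Agent.Lib.Classical
open Cfsg.Agent.Lib.AutPSU (InW Cond Pair mat pr hm)

universe u

variable {F : Type u} [Field F] [Fintype F] [CharP F 2] (hF : Fintype.card F = 4 ^ 2)
include hF

omit [CharP F 2] in
theorem det_of_triangular {s : AutPSU.S 3 F 4} {e f y : Fin 3 → F} (HP : Pair 4 e f)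
    (hy : InW 4 e f y) (hy1 : hm 4 y y = 1) {a b c d l : F}
    (he : mat s *ᵥ e = e) (hsy : mat s *ᵥ y = l • y + a • e)
    (hsf : mat s *ᵥ f = b • e + c • y + d • f) (hd : d = 1) : l = 1 := by
  let M : Matrix (Fin 3) (Fin 3) F := Matrix.of fun i j => ![e, y, f] j i
  let T : Matrix (Fin 3) (Fin 3) F := !![1, a, b; 0, l, c; 0, 0, d]
  have hMT : mat s * M = M * T := by
    ext i j
    fin_cases j
    · have h := congrFun he i
      simp only [Matrix.mulVec, dotProduct] at h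
      simp [Matrix.mul_apply, Fin.sum_univ_three, M, T] at h ⊢
      exact h
    · have h := congrFun hsy i
      simp only [Matrix.mulVec, dotProduct] at h
      simp [Matrix.mul_apply, Fin.sum_univ_three, M, T] at h ⊢
      linear_combination h
    · have h := congrFun hsf i
      simp only [Matrix.mulVec, dotProduct] at h
      simp [Matrix.mul_apply, Fin.sum_univ_three, M, T] at h ⊢
      linear_combination h
  have hMdet : M.det ≠ 0 := by
    rw [Ne, ← Matrix.exists_mulVec_eq_zero_iff]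
    rintro ⟨v, hv0, hv⟩
    have hsum : v 0 • e + v 1 • y + v 2 • f = 0 := by
      funext i
      have := congrFun hv i
      simp [Matrix.mulVec, dotProduct, Fin.sum_univ_three, M] at this ⊢
      linear_combination this
    have h1 := congrArg (fun z => hm 4 z e) hsum
    have h2 := congrArg (fun z => hm 4 z f) hsum
    have h3 := congrArg (fun z => hm 4 z y) hsum
    simp only [AutPSU.hm_add_left, AutPSU.hm_smul_left', HP.ee, HP.ef, HP.fe, HP.ff, hy.1, hy.2, hy1,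
      (hy.swap hF).1, (hy.swap hF).2, AutPSU.hm_zero_left, mul_zero, mul_one, zero_add, add_zero]
      at h1 h2 h3
    exact hv0 (funext fun i => by fin_cases i <;> assumption)
  have h := congrArg Matrix.det hMT
  rw [det_mul, det_mul, (show (mat s).det = 1 from (s : Matrix.SpecialLinearGroup (Fin 3) F).2),
    one_mul, Matrix.det_fin_three (A := T)] at h
  simp [T, hd] at h
  exact (mul_left_cancel₀ hMdet (by rw [mul_one]; exact h)).symm

set_option maxHeartbeats 1000000 in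
theorem exists_centralizer : ∃ t : Cfsg.PSU 3 F 4, orderOf t = 2 ∧
    ∃ T : Subgroup (Subgroup.centralizer ({t} : Set (Cfsg.PSU 3 F 4))), T.Normal ∧
      Nat.card (Subgroup.centralizer ({t} : Set (Cfsg.PSU 3 F 4))) = 320 ∧
      Nonempty (Shape F 4 T) ∧
      ∃ x : Subgroup.centralizer ({t} : Set (Cfsg.PSU 3 F 4)), x ^ 5 = 1 ∧
        ∃ s ∈ T, x * s ≠ s * x := by
  classical
  haveI : Fact (Nat.Prime 2) := ⟨Nat.prime_two⟩
  haveI : Fact (Nat.Prime 5) := ⟨by norm_num⟩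
  obtain ⟨e, f, HP⟩ := AutPSU.exists_pair hF (n := 3) (by norm_num)
  obtain ⟨y, hy, hy1⟩ := AutPSU.exists_W_unit hF HP le_rfl
  have hy0 : y ≠ 0 := by
    rintro rfl
    rw [AutPSU.hm_zero_left] at hy1
    exact zero_ne_one hy1
  obtain ⟨κ, hκ0, hκ⟩ := AutPSU.exists_skew_ne_zero hF
  refine ⟨AutPSU.tr hF e κ, ?_, ?_⟩
  · refine orderOf_eq_prime ?_ (AutPSU.tr_ne_one hF (by norm_num) HP.valid_e hκ hκ0)
    rw [sq]
    show pr _ * pr _ = 1
    rw [← map_mul, ← AutPSU.U_zero_eq_T hF HP hκ,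
      AutPSU.U_mul hF HP (InW.zero e f) (InW.zero e f) (Cond.skew hF hκ) (Cond.skew hF hκ),
      AutPSU.hm_zero_left, sub_zero, add_zero, CharTwo.add_self_eq_zero,
      AutPSU.U_zero_eq_T hF HP (AutPSU.Skew.zero hF), AutPSU.T_zero hF HP.ee, map_one]
  set C := Subgroup.centralizer ({AutPSU.tr hF e κ} : Set (Cfsg.PSU 3 F 4)) with hC
  have hQC : AutPSU.QG hF HP ≤ C := by
    rintro _ ⟨x, c, hx, hc, rfl⟩
    rw [hC, Subgroup.mem_centralizer_singleton_iff]
    show pr _ * pr _ = pr _ * pr _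
    rw [← map_mul, ← map_mul, ← AutPSU.U_zero_eq_T hF HP hκ,
      AutPSU.U_mul hF HP (InW.zero e f) hx (Cond.skew hF hκ) hc,
      AutPSU.U_mul hF HP hx (InW.zero e f) hc (Cond.skew hF hκ), AutPSU.hm_zero_left,
      AutPSU.hm_zero_right hF, sub_zero, sub_zero, zero_add, add_zero, add_comm c]
  -- elements of the centralizer fix the point
  have hfixpt : ∀ g ∈ C, ∀ s, pr s = g → ∃ t : F, t ^ 5 = 1 ∧ mat s *ᵥ e = t • e := by
    rintro g hg s rfl
    rw [hC, Subgroup.mem_centralizer_singleton_iff] at hg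
    obtain ⟨t, ht0, ht⟩ := AutPSU.fixes_of_commute hF (by norm_num) HP.valid_e hκ hκ0 hg
    refine ⟨t, ?_, ht⟩
    have h := AutPSU.tr_conj hF HP.ee hκ s
    rw [ht, (show Commute (pr s) (AutPSU.tr hF e κ) from hg).eq, mul_inv_cancel_right] at h
    have hNt : (t * t ^ 4) ∈ Fx hF := N_mem hF t
    have hsk : AutPSU.Skew 4 (t * t ^ 4 * κ) := by
      unfold AutPSU.Skew at hκ ⊢
      rw [mul_pow, (mem_Fx hF).1 hNt]
      linear_combination (t * t ^ 4) * hκ
    have e2 : AutPSU.tr hF (t • e) κ = AutPSU.tr hF e (t * t ^ 4 * κ) := by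
      refine congrArg pr (AutPSU.vec_ext fun z => ?_)
      rw [AutPSU.T_mulVec hF (by rw [AutPSU.hm_smul_left', AutPSU.hm_smul_right, HP.ee, mul_zero,
        mul_zero]) hκ, AutPSU.T_mulVec hF HP.ee hsk, AutPSU.hm_smul_right, smul_smul]
      congr 2
      ring
    have h2 := AutPSU.tr_left_inj hF (by norm_num) HP.valid_e hκ hsk (h.trans e2)
    exact mul_right_cancel₀ hκ0 (by linear_combination -h2)
  have hQG : ∀ s : AutPSU.S 3 F 4, mat s *ᵥ e = e → pr s ∈ AutPSU.QG hF HP := by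
    intro s hse
    refine AutPSU.pr_mem_QG hF HP hse fun w hw => ?_
    obtain ⟨k, rfl⟩ := AutPSU.W_line hF HP rfl hy hy0 hw
    have hperp : hm 4 (mat s *ᵥ y) e = 0 :=
      AutPSU.hm_fix_e hF HP one_ne_zero (by rw [one_smul]; exact hse) hy.1
    obtain ⟨l, hl⟩ := AutPSU.W_line hF HP rfl hy hy0 (AutPSU.proj_mem HP (mat s *ᵥ y))
    have hsy : mat s *ᵥ y = l • y + hm 4 (mat s *ᵥ y) f • e := by
      conv_lhs => rw [AutPSU.perp_e_decomp hF HP hperp, hl]
      rw [add_comm]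
    obtain ⟨c, hc⟩ := AutPSU.W_line hF HP rfl hy hy0 (AutPSU.proj_mem HP (mat s *ᵥ f))
    have hsf : mat s *ᵥ f =
        hm 4 (mat s *ᵥ f) f • e + c • y + hm 4 (mat s *ᵥ f) e • f := by
      conv_lhs => rw [AutPSU.decomp (q := 4) e f (mat s *ᵥ f), hc]
      abel
    have hd : hm 4 (mat s *ᵥ f) e = 1 := by
      conv_lhs => rw [← hse]
      rw [AutPSU.iso, HP.fe]
    have hl1 := det_of_triangular hF HP hy hy1 hse hsy hsf hd
    generalize hm 4 (mat s *ᵥ y) f = a at hsy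
    exact ⟨k * a, by rw [mulVec_smul, hsy, hl1, one_smul, smul_add, smul_smul]⟩
  -- the torus
  obtain ⟨γu, hγu⟩ := exists_prime_orderOf_dvd_card' (G := Fˣ) 5 (by
    rw [Nat.card_eq_fintype_card, Fintype.card_units, hF]; norm_num)
  set γ : F := (γu : F) with hγdef
  have hγ5 : γ ^ 5 = 1 := by
    rw [hγdef, ← Units.val_pow_eq_pow_val, ← hγu, pow_orderOf_eq_one, Units.val_one]
  have hγ1 : γ ≠ 1 := fun h => by
    rw [show γu = 1 from Units.ext h, orderOf_one] at hγu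
    norm_num at hγu
  have hγ0 : γ ≠ 0 := Units.ne_zero γu
  obtain ⟨s₀, hs₀e, hs₀f, hs₀y⟩ := AutPSU.exists_torus_line hF HP hy hy1 hγ0
  have hpow_e : ∀ k, mat (s₀ ^ k) *ᵥ e = γ ^ k • e := by
    intro k
    induction k with
    | zero => rw [pow_zero, AutPSU.mat_one, one_mulVec, pow_zero, one_smul]
    | succ k ih =>
      rw [pow_succ, AutPSU.mat_mul, ← mulVec_mulVec, hs₀e, mulVec_smul, ih, smul_smul]
      congr 1; ring
  have hx₀C : pr s₀ ∈ C := by
    rw [hC, Subgroup.mem_centralizer_singleton_iff]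
    have h := AutPSU.tr_conj hF HP.ee hκ s₀
    rw [hs₀e] at h
    have e2 : AutPSU.tr hF (γ • e) κ = AutPSU.tr hF e κ := by
      refine congrArg pr (AutPSU.vec_ext fun z => ?_)
      rw [AutPSU.T_mulVec hF (by rw [AutPSU.hm_smul_left', AutPSU.hm_smul_right, HP.ee, mul_zero,
        mul_zero]) hκ, AutPSU.T_mulVec hF HP.ee hκ, AutPSU.hm_smul_right, smul_smul]
      congr 2
      linear_combination (κ * hm 4 z e) * hγ5
    rw [e2, mul_inv_eq_iff_eq_mul] at h
    exact h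
  set QC := (AutPSU.QG hF HP).subgroupOf C with hQCdef
  have hQnormal : QC.Normal := ⟨fun n hn g => by
    obtain ⟨s, hs⟩ := AutPSU.pr_surjective (g : Cfsg.PSU 3 F 4)
    obtain ⟨t, ht5, ht⟩ := hfixpt _ g.2 s hs
    have ht0 : t ≠ 0 := fun h => by rw [h, zero_pow (by norm_num)] at ht5; exact zero_ne_one ht5
    show (g : Cfsg.PSU 3 F 4) * n * (g : Cfsg.PSU 3 F 4)⁻¹ ∈ AutPSU.QG hF HP
    rw [← hs]
    exact AutPSU.QG_conj hF HP ht0 ht hn⟩
  -- the group is generated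
  refine ⟨QC, hQnormal, ?_⟩
  obtain ⟨H⟩ := shape_QG hF HP hy hy1
  have h64 : Nat.card (AutPSU.QG hF HP) = 64 := by rw [H.card_eq hF]; norm_num
  have hpow5 : ∀ q ∈ AutPSU.QG hF HP, q ^ 16 = 1 := fun q hq => by
    have h4 : ((⟨q, hq⟩ : AutPSU.QG hF HP) * ⟨q, hq⟩) * (⟨q, hq⟩ * ⟨q, hq⟩) = 1 :=
      (H.sq_eq_one hF).2 (H.fs_sq hF _)
    have h4' : q * q * (q * q) = 1 := congrArg Subtype.val h4
    calc q ^ 16 = (q * q * (q * q)) ^ 4 := by simp only [pow_succ, pow_zero, one_mul, mul_assoc]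
      _ = 1 := by rw [h4', one_pow]
  have hx5 : (pr s₀ ^ 16) ^ 5 = 1 := by
    rw [← pow_mul, mul_comm, pow_mul, ← map_pow]
    exact hpow5 _ (hQG _ (by rw [hpow_e, hγ5, one_smul]))
  have hXC : pr s₀ ^ 16 ∈ C := pow_mem hx₀C 16
  have h16 : γ ^ 16 = γ := by rw [show (16 : ℕ) = 5 * 3 + 1 from rfl, pow_succ, pow_mul, hγ5, one_pow, one_mul]
  have hnot : ∀ c : F, Cond 4 y c → pr s₀ ^ 16 * pr (AutPSU.U hF e y c) ≠
      pr (AutPSU.U hF e y c) * pr s₀ ^ 16 := by
    intro c hc h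
    rw [← map_pow, ← map_mul, ← map_mul] at h
    obtain ⟨a, ha⟩ := Herm.scalar_of_mem_center_SU hF (by norm_num) (QuotientGroup.eq.1 h)
    set u := AutPSU.U hF e y c with hu
    have hmat : mat (u * s₀ ^ 16) = a • mat (s₀ ^ 16 * u) := by
      have e1 : u * s₀ ^ 16 = (s₀ ^ 16 * u) * ((s₀ ^ 16 * u)⁻¹ * (u * s₀ ^ 16)) := by group
      rw [e1, AutPSU.mat_mul,
        show mat ((s₀ ^ 16 * u)⁻¹ * (u * s₀ ^ 16)) = a • 1 from ha, Matrix.mul_smul, mul_one]
    have he' := congrArg (fun M : Matrix (Fin 3) (Fin 3) F => M *ᵥ e) hmat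
    simp only [AutPSU.mat_mul, smul_mulVec, ← mulVec_mulVec] at he'
    rw [AutPSU.U_apply_e hF HP hy hc, hpow_e, mulVec_smul, AutPSU.U_apply_e hF HP hy hc, h16,
      smul_smul] at he'
    have ha1 : a = 1 := by
      have := smul_left_injective F HP.e_ne he'
      exact mul_right_cancel₀ hγ0 (by linear_combination -this)
    have hf' := congrArg (fun M : Matrix (Fin 3) (Fin 3) F => hm 4 (M *ᵥ f) y) hmat
    have hpow_f : ∀ k, mat (s₀ ^ k) *ᵥ f = ((γ ^ 4)⁻¹) ^ k • f := by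
      intro k
      induction k with
      | zero => rw [pow_zero, AutPSU.mat_one, one_mulVec, pow_zero, one_smul]
      | succ k ih =>
        rw [pow_succ, AutPSU.mat_mul, ← mulVec_mulVec, hs₀f, mulVec_smul, ih, smul_smul]
        congr 1; ring
    have hpow_y : ∀ k, mat (s₀ ^ k) *ᵥ y = (γ ^ 4 * γ⁻¹) ^ k • y := by
      intro k
      induction k with
      | zero => rw [pow_zero, AutPSU.mat_one, one_mulVec, pow_zero, one_smul]
      | succ k ih =>
        rw [pow_succ, AutPSU.mat_mul, ← mulVec_mulVec, hs₀y, mulVec_smul, ih, smul_smul]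
        congr 1; ring
    rw [hu] at hf'
    simp only [ha1, one_smul, AutPSU.mat_mul, ← mulVec_mulVec, AutPSU.U_apply_f hF HP hy hc, hpow_f,
      hpow_e, hpow_y, mulVec_add, mulVec_smul, AutPSU.hm_add_left, AutPSU.hm_smul_left', hy1,
      (hy.swap hF).1, (hy.swap hF).2, mul_zero, mul_one, zero_add, add_zero] at hf'
    have hinv : (γ ^ 4)⁻¹ = γ := inv_eq_of_mul_eq_one_right (by linear_combination hγ5)
    have hinv1 : γ⁻¹ = γ ^ 4 := inv_eq_of_mul_eq_one_right (by linear_combination hγ5)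
    rw [hinv, hinv1, h16, ← pow_add, ← pow_mul,
      show γ ^ ((4 + 4) * 16) = γ ^ 3 by
        rw [show (4 + 4) * 16 = 5 * 25 + 3 from rfl, pow_add, pow_mul, hγ5, one_pow, one_mul]] at hf'
    have h2 : γ * (γ ^ 2 - 1) = 0 := by linear_combination -hf'
    rcases mul_eq_zero.1 h2 with h0 | h0
    · exact hγ0 h0
    · exact hγ1 (by linear_combination hγ5 - (γ ^ 3 + γ) * h0)
  obtain ⟨c₁, hc₁⟩ := AutPSU.exists_cond hF y
  let S1 : C := ⟨_, hQC (AutPSU.U_mem_QG hF HP hy hc₁)⟩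
  have hxnc : (⟨_, hXC⟩ : C) * S1 ≠ S1 * ⟨_, hXC⟩ :=
    fun h => hnot c₁ hc₁ (congrArg Subtype.val h)
  have hxo : orderOf (pr s₀ ^ 16) = 5 :=
    orderOf_eq_prime hx5 fun h => hnot c₁ hc₁ (by rw [h, one_mul, mul_one])
  refine ⟨?_, ⟨H.comap (Subgroup.subgroupOfEquivOfLe hQC)⟩, ⟨_, hXC⟩, Subtype.ext hx5, S1,
    AutPSU.U_mem_QG hF HP hy hc₁, hxnc⟩
  refine le_antisymm ?_ (Nat.le_of_dvd Nat.card_pos ?_)
  · let ψ : AutPSU.QG hF HP × Fin 5 → C := fun p =>
      ⟨(p.1 : Cfsg.PSU 3 F 4) * pr s₀ ^ (p.2 : ℕ), mul_mem (hQC p.1.2) (pow_mem hx₀C _)⟩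
    have hψ : Function.Surjective ψ := by
      rintro ⟨g, hg⟩
      obtain ⟨s, rfl⟩ := AutPSU.pr_surjective g
      obtain ⟨t, ht5, ht⟩ := hfixpt _ hg s rfl
      have hprim : IsPrimitiveRoot γ 5 := by
        rw [IsPrimitiveRoot.iff_def]
        refine ⟨hγ5, fun l hl => ?_⟩
        rw [← hγu]
        exact orderOf_dvd_of_pow_eq_one (Units.ext (by simpa using hl))
      haveI : NeZero (5 : ℕ) := ⟨by norm_num⟩
      obtain ⟨i, hi, rfl⟩ := hprim.eq_pow_of_pow_eq_one ht5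
      have hfix : mat (s * (s₀ ^ i)⁻¹) *ᵥ e = e := by
        rw [AutPSU.mat_mul, ← mulVec_mulVec,
          AutPSU.mulVec_inv_of_fix (s₀ ^ i) (pow_ne_zero _ hγ0) (hpow_e i), mulVec_smul, ht,
          smul_smul, inv_mul_cancel₀ (pow_ne_zero _ hγ0), one_smul]
      refine ⟨⟨⟨_, hQG _ hfix⟩, ⟨i, hi⟩⟩, Subtype.ext ?_⟩
      show pr (s * (s₀ ^ i)⁻¹) * pr s₀ ^ i = pr s
      rw [map_mul, map_inv, map_pow, inv_mul_cancel_right]
    refine (Nat.card_le_card_of_surjective ψ hψ).trans ?_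
    rw [Nat.card_prod, h64, Nat.card_fin]
  · have h1 := Subgroup.card_dvd_of_le hQC
    rw [h64] at h1
    have h2 : 5 ∣ Nat.card C := by
      rw [← hxo]; exact Subgroup.orderOf_dvd_natCard _ hXC
    exact Nat.Coprime.mul_dvd_of_dvd_of_dvd (by norm_num : Nat.Coprime 64 5) h1 h2

end Cfsg.Agent.Lib.U3Sylow
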