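import Cfsg.Agent.Lib.U3Sylow.Aut
import Cfsg.Agent.Lib.SuzukiTwo.Extension

/-!
A group of order `320` with derived group of order `64` having a four-group as centre is determined
up to isomorphism by these properties.
-/

set_option autoImplicit false

namespace Cfsg.Agent.Lib.U3Sylow

open Cfsg.Agent.Lib.Classical
open scoped commutatorElement IsMulCommutative

universe u v w

/-! ### Maps of order five -/

theorem card_fixed_five {α : Type*} [Finite α] (f : α → α) (hf : ∀ x, f (f (f (f (f x)))) = x) :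
    Nat.card α % 5 = Nat.card {x // f x = x} % 5 := by
  classical
  haveI : Fact (Nat.Prime 5) := ⟨by norm_num⟩
  letI := Fintype.ofFinite α
  let f' : Function.End α := f
  have h : f' ^ 5 ^ 1 = 1 := funext hf
  have h2 := Equiv.Perm.card_fixedPoints_modEq (p := 5) (n := 1) h
  rw [← Nat.card_eq_fintype_card, ← Nat.card_eq_fintype_card] at h2
  exact h2

theorem dvd_sixteen {k : ℕ} (h : k ∣ 16) : k = 1 ∨ k = 2 ∨ k = 4 ∨ k = 8 ∨ k = 16 := by
  have := Nat.le_of_dvd (by norm_num) h
  interval_cases k <;> omega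

/-- The coordinates in the basis `w, Tw, T²w, T³w`. -/
def ι {W : Type u} [AddCommGroup W] [Module (ZMod 2) W] (T : W →+ W) (w : W) :
    (Fin 4 → ZMod 2) →+ W where
  toFun c := c 0 • w + c 1 • T w + c 2 • T (T w) + c 3 • T (T (T w))
  map_zero' := by simp
  map_add' a b := by simp only [Pi.add_apply, add_smul]; abel

theorem ι_equivariant {W : Type u} [AddCommGroup W] [Module (ZMod 2) W] (T : W →+ W)
    (hT : ∀ x, T (T (T (T (T x)))) = x) (hfix : ∀ x, T x = x → x = 0) (w : W) (c : Fin 4 → ZMod 2) :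
    T (ι T w c) = ι T w ![c 3, c 0 + c 3, c 1 + c 3, c 2 + c 3] := by
  have h4 : T (T (T (T w))) = w + T w + T (T w) + T (T (T w)) := by
    have h := hfix (w + T w + T (T w) + T (T (T w)) + T (T (T (T w)))) (by
      simp only [map_add, hT]; abel)
    have h2 : ∀ x : W, x + x = 0 := fun x => by
      rw [← one_smul (ZMod 2) x, ← add_smul]
      exact (congrArg (· • x) (show (1 : ZMod 2) + 1 = 0 by decide)).trans (zero_smul _ x)
    calc T (T (T (T w))) = 0 + T (T (T (T w))) := (zero_add _).symm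
      _ = w + T w + T (T w) + T (T (T w)) + (T (T (T (T w))) + T (T (T (T w)))) := by
        conv_lhs => rw [← h]
        abel
      _ = _ := by rw [h2, add_zero]
  have hsm : ∀ (a : ZMod 2) (x : W), T (a • x) = a • T x := fun a x => by
    rcases (by decide : ∀ b : ZMod 2, b = 0 ∨ b = 1) a with rfl | rfl
    · rw [zero_smul, zero_smul, map_zero]
    · rw [one_smul, one_smul]
  show T (c 0 • w + c 1 • T w + c 2 • T (T w) + c 3 • T (T (T w))) = _
  simp only [map_add, hsm, h4, ι, AddMonoidHom.coe_mk, ZeroHom.coe_mk, Matrix.cons_val_zero,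
    Matrix.cons_val_one, Matrix.cons_val, smul_add, add_smul]
  abel

theorem ι_bijective {W : Type u} [AddCommGroup W] [Module (ZMod 2) W] (hW : Nat.card W = 16)
    (T : W →+ W) (hT : ∀ x, T (T (T (T (T x)))) = x) (hfix : ∀ x, T x = x → x = 0) {w : W}
    (hw : w ≠ 0) : Function.Bijective (ι T w) := by
  haveI : Finite W := Nat.finite_of_card_ne_zero (by rw [hW]; norm_num)
  have hmem : ∀ x : (ι T w).range, T x ∈ (ι T w).range := by
    rintro ⟨_, c, rfl⟩
    exact ⟨_, (ι_equivariant T hT hfix w c).symm⟩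
  have h5 := card_fixed_five (fun x : (ι T w).range => (⟨T x, hmem x⟩ : (ι T w).range))
    fun x => Subtype.ext (hT x)
  have h1 : Nat.card {x : (ι T w).range // (⟨T x, hmem x⟩ : (ι T w).range) = x} = 1 := by
    rw [Nat.card_eq_one_iff_unique]
    exact ⟨⟨fun a b => Subtype.ext (Subtype.ext ((hfix _ (congrArg Subtype.val a.2)).trans
      (hfix _ (congrArg Subtype.val b.2)).symm))⟩, ⟨⟨0, Subtype.ext (map_zero T)⟩⟩⟩
  rw [h1] at h5
  have hne : Nat.card (ι T w).range ≠ 1 := fun h => by
    rw [AddSubgroup.card_eq_one] at h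
    have : ι T w ![1, 0, 0, 0] ∈ (ι T w).range := ⟨_, rfl⟩
    rw [h, AddSubgroup.mem_bot] at this
    exact hw (by simpa [ι] using this)
  have hdvd : Nat.card (ι T w).range ∣ 16 := hW ▸ AddSubgroup.card_addSubgroup_dvd_card _
  have h16 : Nat.card (ι T w).range = 16 := by
    rcases dvd_sixteen hdvd with e | e | e | e | e <;> rw [e] at h5 hne ⊢ <;> omega
  have hs : Function.Surjective (ι T w) :=
    AddMonoidHom.range_eq_top.1 (AddSubgroup.eq_top_of_card_eq _ (h16.trans hW.symm))
  exact (Nat.bijective_iff_surjective_and_card _).2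
    ⟨hs, by rw [hW, Nat.card_fun, Nat.card_fin, Nat.card_zmod]; norm_num⟩

/-! ### Uniqueness of the extension by an element of order five -/

theorem pow_five_noncommute {G : Type u} [Group G] {S : Subgroup G} [S.Normal] {x : G}
    (hx : x ^ 5 = 1) (hnc : ∃ s ∈ S, x * s ≠ s * x) :
    orderOf (MulAut.conjNormal x : MulAut S) = 5 := by
  haveI : Fact (Nat.Prime 5) := ⟨by norm_num⟩
  refine orderOf_eq_prime (by rw [← map_pow, hx, map_one]) fun h => ?_
  obtain ⟨s, hs, hne⟩ := hnc
  have h' := congrArg Subtype.val (congrArg (fun φ : MulAut S => φ ⟨s, hs⟩) h)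
  simp only [MulAut.conjNormal_apply, MulAut.one_apply] at h'
  exact hne (mul_inv_eq_iff_eq_mul.1 h')

theorem nonempty_equiv_of_five {F : Type w} [Field F] [Fintype F] [CharP F 2]
    (hF : Fintype.card F = 4 ^ 2) {G : Type u} {K : Type v} [Group G] [Group K]
    (S : Subgroup G) [S.Normal] (T : Subgroup K) [T.Normal]
    (hG : Nat.card G = 320) (hK : Nat.card K = 320) (H : Shape F 4 S) (H' : Shape F 4 T)
    (eT : S ≃* T) {x : G} {y : K} (hx : x ^ 5 = 1) (hy : y ^ 5 = 1)
    (hxn : ∃ s ∈ S, x * s ≠ s * x) (hyn : ∃ t ∈ T, y * t ≠ t * y) : Nonempty (G ≃* K) := by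
  classical
  haveI : Fact (Nat.Prime 5) := ⟨by norm_num⟩
  haveI := H.finite hF
  haveI : Finite (MulAut S) := Finite.of_injective (fun φ => (φ : S → S)) DFunLike.coe_injective
  let a : MulAut S := MulAut.conjNormal x
  let b : MulAut S := eT.trans ((MulAut.conjNormal y).trans eT.symm)
  have hb : ∀ s, b s = eT.symm (MulAut.conjNormal y (eT s)) := fun _ => rfl
  have ha5 : orderOf a = 5 := pow_five_noncommute hx hxn
  have hbpow : ∀ (k : ℕ) s, (b ^ k) s = eT.symm (MulAut.conjNormal (y ^ k) (eT s)) := by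
    intro k
    induction k with
    | zero => intro s; simp
    | succ k ih =>
      intro s
      rw [pow_succ', MulAut.mul_apply, ih, hb, eT.apply_symm_apply, pow_succ' y k, map_mul]
      rfl
  have hb5 : orderOf b = 5 := by
    refine orderOf_eq_prime (MulEquiv.ext fun s => ?_) fun h => ?_
    · rw [hbpow, hy, map_one]; simp
    · obtain ⟨t, ht, hne⟩ := hyn
      have h2 := congrArg (fun φ : MulAut S => eT (φ (eT.symm ⟨t, ht⟩))) h
      simp only [hb, MulEquiv.apply_symm_apply, MulAut.one_apply] at h2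
      have h' := congrArg Subtype.val h2
      simp only [MulAut.conjNormal_apply] at h'
      exact hne (mul_inv_eq_iff_eq_mul.1 h')
  have hA : Nat.card (MulAut S) = 15360 := by
    rw [H.card_mulAut hF (n := 2) (by norm_num) (by norm_num)]
    norm_num
  have hfac : (Nat.card (MulAut S)).factorization 5 = 1 := by
    rw [hA, show (15360 : ℕ) = 5 * 3072 by norm_num,
      Nat.factorization_mul (by norm_num) (by norm_num), Finsupp.add_apply,
      Nat.Prime.factorization_self (by norm_num), Nat.factorization_eq_zero_of_not_dvd (by norm_num)]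
  let A : Sylow 5 (MulAut S) := Sylow.ofCard (Subgroup.zpowers a)
    (by rw [Nat.card_zpowers, ha5, hfac, pow_one])
  let B : Sylow 5 (MulAut S) := Sylow.ofCard (Subgroup.zpowers b)
    (by rw [Nat.card_zpowers, hb5, hfac, pow_one])
  obtain ⟨θ, hθ⟩ := MulAction.exists_smul_eq (MulAut S) A B
  have hmem : θ * a * θ⁻¹ ∈ Subgroup.zpowers b := by
    have h : θ * a * θ⁻¹ ∈ ((θ • A : Sylow 5 (MulAut S)) : Subgroup (MulAut S)) := by
      rw [Sylow.coe_subgroup_smul]
      exact ⟨a, Subgroup.mem_zpowers a, rfl⟩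
    rw [hθ] at h
    exact h
  rw [mem_zpowers_iff_mem_range_orderOf, Finset.mem_image] at hmem
  obtain ⟨k, hk, hbk⟩ := hmem
  rw [Finset.mem_range, hb5] at hk
  let e : S ≃* T := θ.trans eT
  have he : ∀ s, (e (a s) : K) = y ^ k * e s * (y ^ k)⁻¹ := fun s => by
    have h := congrArg (fun φ : MulAut S => φ (θ s)) hbk
    simp only [MulAut.mul_apply, MulAut.apply_inv_self, hbpow] at h
    rw [show θ⁻¹ (θ s) = s from θ.symm_apply_apply s] at h
    show (eT (θ (a s)) : K) = _
    rw [← h, eT.apply_symm_apply, MulAut.conjNormal_apply]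
    rfl
  -- the isomorphism
  have hxo : orderOf x = 5 := by
    refine orderOf_eq_prime hx fun h => ?_
    obtain ⟨s, -, hne⟩ := hxn
    exact hne (by rw [h, one_mul, mul_one])
  let Z := Subgroup.zpowers x
  let φ : Z →* MulAut S := (MulAut.conjNormal : G →* MulAut S).comp Z.subtype
  let toG : S ⋊[φ] Z →* G := SemidirectProduct.lift S.subtype Z.subtype fun z => by
    ext s
    simp [φ]
  let gen : Z := ⟨x, Subgroup.mem_zpowers x⟩
  have hgen : ∀ z : Z, z ∈ Subgroup.zpowers gen := by
    rintro ⟨_, i, rfl⟩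
    exact ⟨i, Subtype.ext (by simp [gen])⟩
  have hord : orderOf (y ^ k) ∣ orderOf gen := by
    rw [Subgroup.orderOf_mk, hxo]
    exact orderOf_dvd_of_pow_eq_one (by rw [← pow_mul, mul_comm, pow_mul, hy, one_pow])
  let fz : Z →* K := monoidHomOfForallMemZpowers hgen hord
  have hfz : fz gen = y ^ k := monoidHomOfForallMemZpowers_apply_gen hgen hord
  let fs : S →* K := T.subtype.comp e.toMonoidHom
  let toK : S ⋊[φ] Z →* K := SemidirectProduct.lift fs fz fun z => by
    let E : Subgroup Z :=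
      { carrier := {z | ∀ s, fs (φ z s) = fz z * fs s * (fz z)⁻¹}
        one_mem' := fun s => by simp
        mul_mem' := fun {u v} hu hv s => by
          rw [map_mul φ, MulAut.mul_apply, hu, hv, map_mul fz]; group
        inv_mem' := fun {u} hu s => by
          have h := hu (φ u⁻¹ s)
          rw [← MulAut.mul_apply, ← map_mul, mul_inv_cancel, map_one, MulAut.one_apply] at h
          rw [h, map_inv fz]; group }
    have hgE : gen ∈ E := fun s => by rw [hfz]; exact he s
    have hzE : z ∈ E := (Subgroup.zpowers_le.2 hgE) (hgen z)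
    ext s
    exact hzE s
  haveI : Finite G := Nat.finite_of_card_ne_zero (by rw [hG]; norm_num)
  haveI : Finite K := Nat.finite_of_card_ne_zero (by rw [hK]; norm_num)
  have h64 : Nat.card S = 64 := by rw [H.card_eq hF]; norm_num
  have hcard : Nat.card (S ⋊[φ] Z) = 320 := by
    rw [SemidirectProduct.card, h64, Nat.card_zpowers, hxo]
  have hinjG : Function.Injective toG := by
    rw [injective_iff_map_eq_one]
    rintro ⟨s, z⟩ h
    have h' : (s : G) * z = 1 := h
    have hz : (z : G) = 1 := by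
      have hzS : (z : G) ∈ S := by
        rw [eq_inv_of_mul_eq_one_right h']; exact inv_mem s.2
      have h1 : orderOf (z : G) ∣ 64 := h64 ▸ Subgroup.orderOf_dvd_natCard _ hzS
      have h2 : orderOf (z : G) ∣ 5 := by
        have := Subgroup.orderOf_dvd_natCard _ z.2
        rwa [Nat.card_zpowers, hxo] at this
      exact orderOf_eq_one_iff.1 (Nat.eq_one_of_dvd_coprimes (by norm_num) h1 h2)
    rw [hz, mul_one] at h'
    exact SemidirectProduct.ext (Subtype.ext h') (Subtype.ext hz)
  have hinjK : Function.Injective toK := by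
    rw [injective_iff_map_eq_one]
    rintro ⟨s, z⟩ h
    have h' : (e s : K) * fz z = 1 := h
    have hz : fz z = 1 := by
      have hzS : fz z ∈ T := by
        rw [eq_inv_of_mul_eq_one_right h']; exact inv_mem (e s).2
      have h1 : orderOf (fz z) ∣ 64 :=
        (h64 ▸ (Nat.card_congr e.toEquiv).symm) ▸ Subgroup.orderOf_dvd_natCard _ hzS
      have h2 : orderOf (fz z) ∣ 5 := (orderOf_map_dvd fz z).trans (by
        have := orderOf_dvd_natCard (x := z)
        rwa [Nat.card_zpowers, hxo] at this)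
      exact orderOf_eq_one_iff.1 (Nat.eq_one_of_dvd_coprimes (by norm_num) h1 h2)
    rw [hz, mul_one] at h'
    have hs : s = 1 := e.injective (Subtype.ext (by rw [h', map_one]; rfl))
    obtain ⟨i, rfl⟩ := hgen z
    rw [map_zpow, hfz] at hz
    have hk0 : k ≠ 0 := fun hk0 => by
      rw [hk0, pow_zero] at hbk
      have h1 : a = θ⁻¹ * θ := by rw [eq_inv_mul_iff_mul_eq]; exact (mul_inv_eq_one.1 hbk.symm)
      rw [inv_mul_cancel] at h1
      rw [h1, orderOf_one] at ha5
      norm_num at ha5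
    have hyo : orderOf y = 5 := by
      refine orderOf_eq_prime hy fun h => ?_
      obtain ⟨t, -, hne⟩ := hyn
      exact hne (by rw [h, one_mul, mul_one])
    have hyk : orderOf (y ^ k) = 5 := by
      rw [orderOf_pow' _ hk0, hyo, Nat.coprime_of_lt_prime hk0 hk (by norm_num), Nat.div_one]
    have h5 := orderOf_dvd_iff_zpow_eq_one.2 hz
    rw [hyk] at h5
    refine SemidirectProduct.ext hs ?_
    show gen ^ i = 1
    rw [← orderOf_dvd_iff_zpow_eq_one, Subgroup.orderOf_mk, hxo]
    exact h5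
  exact ⟨(MulEquiv.ofBijective toG ((Nat.bijective_iff_injective_and_card _).2
    ⟨hinjG, hcard.trans hG.symm⟩)).symm.trans
    (MulEquiv.ofBijective toK ((Nat.bijective_iff_injective_and_card _).2
    ⟨hinjK, hcard.trans hK.symm⟩))⟩

/-! ### The structure of the group -/

theorem invariant_bot_or_top {W : Type u} [Group W] (hW : Nat.card W = 16) (a : MulAut W)
    (ha : ∀ x, a (a (a (a (a x)))) = x) (hfix : ∀ x, a x = x → x = 1) (U : Subgroup W)
    (hU : ∀ x ∈ U, a x ∈ U) : U = ⊥ ∨ U = ⊤ := by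
  haveI : Finite W := Nat.finite_of_card_ne_zero (by rw [hW]; norm_num)
  have h5 := card_fixed_five (fun x : U => (⟨a x, hU x x.2⟩ : U)) fun x => Subtype.ext (ha x)
  have h1 : Nat.card {x : U // (⟨a x, hU x x.2⟩ : U) = x} = 1 := by
    rw [Nat.card_eq_one_iff_unique]
    exact ⟨⟨fun p r => Subtype.ext (Subtype.ext ((hfix _ (congrArg Subtype.val p.2)).trans
      (hfix _ (congrArg Subtype.val r.2)).symm))⟩, ⟨⟨1, Subtype.ext (map_one a)⟩⟩⟩
  rw [h1] at h5
  rcases dvd_sixteen (hW ▸ Subgroup.card_subgroup_dvd_card U) with e | e | e | e | e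
  · exact Or.inl (Subgroup.card_eq_one.1 e)
  all_goals rw [e] at h5
  all_goals first | omega | exact Or.inr (Subgroup.eq_top_of_card_eq U (e.trans hW.symm))

theorem sq_mul_mul {S : Type u} [Group S] (hs : ∀ g : S, g * g ∈ Subgroup.center S)
    (h2 : ∀ z ∈ Subgroup.center S, z * z = 1) (a b c : S) :
    a * b * c * (a * b * c) * (a * a) * (b * b) * (c * c) =
      a * b * (a * b) * (a * c * (a * c)) * (b * c * (b * c)) := by
  let q : S → Subgroup.center S := fun g => ⟨g * g, hs g⟩
  let d : S → S → Subgroup.center S := fun g h => q (g * h) * q g * q h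
  have hsq : ∀ z : Subgroup.center S, z * z = 1 := fun z => Subtype.ext (h2 _ z.2)
  have hc : ∀ g h, ((d g h : Subgroup.center S) : S) = g⁻¹ * h * g * h⁻¹ := fun g h => by
    have e : g * h * (g * h) = g * g * (g⁻¹ * h * g * h⁻¹) * (h * h) := by group
    have hz : g⁻¹ * h * g * h⁻¹ ∈ Subgroup.center S := by
      have : g⁻¹ * h * g * h⁻¹ = (g * g)⁻¹ * (g * h * (g * h)) * (h * h)⁻¹ := by group
      rw [this]
      exact mul_mem (mul_mem (inv_mem (hs g)) (hs _)) (inv_mem (hs h))
    have e' : d g h = ⟨_, hz⟩ := by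
      have e'' : q (g * h) = q g * ⟨_, hz⟩ * q h := Subtype.ext e
      show q (g * h) * q g * q h = _
      rw [e'']
      calc q g * ⟨_, hz⟩ * q h * q g * q h
          = (q g * q g) * (q h * q h) * ⟨_, hz⟩ := by ac_rfl
        _ = _ := by rw [hsq, hsq, one_mul, one_mul]
    rw [e']
  have hbil : d a (b * c) = d a b * d a c := by
    refine Subtype.ext ?_
    rw [hc a (b * c), show ((d a b * d a c : Subgroup.center S) : S) = (d a b : S) * (d a c : S) from rfl,
      hc, hc]
    have hz : a⁻¹ * c * a * c⁻¹ ∈ Subgroup.center S := hc a c ▸ (d a c).2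
    have e := Subgroup.mem_center_iff.1 hz b
    calc a⁻¹ * (b * c) * a * (b * c)⁻¹
        = a⁻¹ * b * a * (a⁻¹ * c * a * c⁻¹) * b⁻¹ := by group
      _ = a⁻¹ * b * a * (b⁻¹ * (b * (a⁻¹ * c * a * c⁻¹))) * b⁻¹ := by group
      _ = a⁻¹ * b * a * (b⁻¹ * ((a⁻¹ * c * a * c⁻¹) * b)) * b⁻¹ := by rw [e]
      _ = _ := by group
  have key : q (a * (b * c)) * q a * q b * q c = q (a * b) * q (a * c) * q (b * c) := by
    have h : q (a * (b * c)) * q a * q (b * c) =
        (q (a * b) * q a * q b) * (q (a * c) * q a * q c) := hbil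
    calc q (a * (b * c)) * q a * q b * q c
        = (q (a * (b * c)) * q a * q (b * c)) * (q b * q c * q (b * c)) := by
          conv_rhs => rw [show q (a * (b * c)) * q a * q (b * c) * (q b * q c * q (b * c)) =
            q (a * (b * c)) * q a * q b * q c * (q (b * c) * q (b * c)) by ac_rfl, hsq, mul_one]
      _ = q (a * b) * q (a * c) * q (b * c) * (q a * q a) * (q b * q b) * (q c * q c) := by
          rw [h]; ac_rfl
      _ = _ := by rw [hsq, hsq, hsq, mul_one, mul_one, mul_one]
  have := congrArg Subtype.val key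
  simpa only [Subgroup.coe_mul, q, ← mul_assoc] using this

theorem not_commute_all {G : Type u} [Group G] [Finite G] (hG : Nat.card G = 320)
    (hD : Nat.card (commutator G) = 64) {x : G} (hx : orderOf x = 5) :
    ∃ s ∈ commutator G, x * s ≠ s * x := by
  by_contra hcon
  push Not at hcon
  set S := commutator G with hS
  have hxS : x ∉ S := fun h => by
    have := Subgroup.orderOf_dvd_natCard _ h
    rw [hx, hD] at this
    norm_num at this
  have hsup : S ⊔ Subgroup.zpowers x = ⊤ := by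
    refine Subgroup.eq_top_of_card_eq _ (le_antisymm (Subgroup.card_le_card_group _) ?_)
    rw [hG]
    refine Nat.le_of_dvd Nat.card_pos ?_
    have h1 := Subgroup.card_dvd_of_le (le_sup_left : S ≤ S ⊔ Subgroup.zpowers x)
    have h2 := Subgroup.card_dvd_of_le (le_sup_right : Subgroup.zpowers x ≤ S ⊔ Subgroup.zpowers x)
    rw [hD] at h1
    rw [Nat.card_zpowers, hx] at h2
    exact Nat.Coprime.mul_dvd_of_dvd_of_dvd (by norm_num : Nat.Coprime 64 5) h1 h2
  haveI : Fact (Nat.Prime 2) := ⟨Nat.prime_two⟩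
  haveI : Nontrivial S := Finite.one_lt_card_iff_nontrivial.1 (by rw [hD]; norm_num)
  haveI : Group.IsNilpotent S := (IsPGroup.of_card (p := 2) (n := 6) (hD.trans (by norm_num))).isNilpotent
  have hlt : commutator S < ⊤ := IsSolvable.commutator_lt_top_of_nontrivial S
  have hx' : ∀ g : G, ∃ s ∈ S, ∃ i : ℤ, g = s * x ^ i := fun g => by
    have : g ∈ S ⊔ Subgroup.zpowers x := hsup ▸ Subgroup.mem_top g
    obtain ⟨s, hs, _, ⟨i, rfl⟩, e⟩ := Subgroup.mem_sup_of_normal_left.1 this
    exact ⟨s, hs, i, e.symm⟩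
  have hle : commutator G ≤ (commutator S).map S.subtype := by
    rw [commutator_def, Subgroup.commutator_le]
    intro g _ h _
    obtain ⟨s, hs, i, rfl⟩ := hx' g
    obtain ⟨t, ht, j, rfl⟩ := hx' h
    have hc : ∀ (i : ℤ), ∀ u ∈ S, Commute (x ^ i) u := fun i u hu =>
      Commute.zpow_left (hcon u hu) i
    refine ⟨⁅(⟨s, hs⟩ : S), ⟨t, ht⟩⁆, Subgroup.commutator_mem_commutator (Subgroup.mem_top _)
      (Subgroup.mem_top _), ?_⟩
    show s * t * s⁻¹ * t⁻¹ = s * x ^ i * (t * x ^ j) * (s * x ^ i)⁻¹ * (t * x ^ j)⁻¹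
    have e1 := (hc i t ht).eq
    have e2 := (hc j s⁻¹ (inv_mem hs)).eq
    have e3 : x ^ i * x ^ j = x ^ j * x ^ i := ((Commute.refl x).zpow_zpow i j).eq
    calc s * t * s⁻¹ * t⁻¹ = s * (t * (x ^ j * s⁻¹ * (x ^ j)⁻¹)) * t⁻¹ := by
          rw [e2, mul_inv_cancel_right, mul_assoc s t]
      _ = s * (t * x ^ i) * (x ^ i)⁻¹ * (x ^ j * s⁻¹ * (x ^ j)⁻¹ * t⁻¹) := by group
      _ = s * (x ^ i * t) * (x ^ i)⁻¹ * (x ^ j * s⁻¹ * (x ^ j)⁻¹ * t⁻¹) := by rw [e1]
      _ = s * (x ^ i * t) * ((x ^ i)⁻¹ * x ^ j) * (s⁻¹ * (x ^ j)⁻¹ * t⁻¹) := by group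
      _ = s * (x ^ i * t) * (x ^ j * (x ^ i)⁻¹) * (s⁻¹ * (x ^ j)⁻¹ * t⁻¹) := by
          rw [(show (x ^ i)⁻¹ * x ^ j = x ^ j * (x ^ i)⁻¹ from
            ((Commute.refl x).zpow_zpow i j).inv_left.eq)]
      _ = _ := by group
  have h1 := Subgroup.card_le_of_le hle
  rw [Subgroup.card_map_of_injective S.subtype_injective] at h1
  exact hlt.ne (Subgroup.eq_top_of_card_eq _ (le_antisymm (Subgroup.card_le_card_group _) h1))

set_option maxHeartbeats 1000000 in
theorem exists_shape_of_structure {F : Type w} [Field F] [Fintype F] [CharP F 2]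
    (hF : Fintype.card F = 4 ^ 2) {G : Type u} [Group G] [Finite G] (hG : Nat.card G = 320)
    (hD : Nat.card (commutator G) = 64) (hZ : IsKleinFour (Subgroup.center (commutator G)))
    {P : Type v} [Group P] (HP : Shape F 4 P) :
    Nonempty (commutator G ≃* P) ∧ ∃ x : G, x ^ 5 = 1 ∧ ∃ s ∈ commutator G, x * s ≠ s * x := by
  classical
  haveI : Fact (Nat.Prime 5) := ⟨by norm_num⟩
  haveI : Fact (Nat.Prime 2) := ⟨Nat.prime_two⟩
  obtain ⟨x, hx⟩ := exists_prime_orderOf_dvd_card' (G := G) 5 (by rw [hG]; norm_num)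
  have hnc := not_commute_all hG hD hx
  have hx5 : x ^ 5 = 1 := hx ▸ pow_orderOf_eq_one x
  refine ⟨?_, x, hx5, hnc⟩
  set S := commutator G with hS
  let a : MulAut S := MulAut.conjNormal x
  have ha5 : a ^ 5 = 1 := by rw [← map_pow, hx5, map_one]
  have ha : ∀ g : S, a (a (a (a (a g)))) = g := fun g => by
    have h := congrArg (fun φ : MulAut S => φ g) ha5
    simp only [pow_succ, pow_zero, one_mul, MulAut.mul_apply, MulAut.one_apply] at h
    exact h
  have hex : ∀ z ∈ Subgroup.center S, z * z = 1 := fun z hz => by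
    have h := Monoid.pow_exponent_eq_one (⟨z, hz⟩ : Subgroup.center S)
    rw [IsKleinFour.exponent_two, sq] at h
    exact congrArg Subtype.val h
  have hcenA : ∀ (φ : MulAut S), ∀ z ∈ Subgroup.center S, φ z ∈ Subgroup.center S :=
    fun φ z hz => by
      rw [Subgroup.mem_center_iff]
      intro k
      obtain ⟨k, rfl⟩ := φ.surjective k
      rw [← map_mul, ← map_mul, Subgroup.mem_center_iff.1 hz k]
  have hc4 : Nat.card (Subgroup.center S) = 4 := hZ.card_four
  have haZ : ∀ z ∈ Subgroup.center S, a z = z := by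
    have h5 := card_fixed_five (fun z : Subgroup.center S => (⟨a z, hcenA a z z.2⟩ : Subgroup.center S))
      fun z => Subtype.ext (ha z)
    rw [hc4] at h5
    have hle := Nat.card_le_card_of_injective
      (Subtype.val : {z : Subgroup.center S // (⟨a z, hcenA a z z.2⟩ : Subgroup.center S) = z} → _)
      Subtype.val_injective
    rw [hc4] at hle
    have hbij := (Nat.bijective_iff_injective_and_card
      (Subtype.val : {z : Subgroup.center S // (⟨a z, hcenA a z z.2⟩ : Subgroup.center S) = z} → _)).2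
      ⟨Subtype.val_injective, by rw [hc4]; omega⟩
    intro z hz
    obtain ⟨⟨w, hw⟩, rfl : w = ⟨z, hz⟩⟩ := hbij.2 ⟨z, hz⟩
    exact congrArg Subtype.val hw
  -- the quotient
  have hW : Nat.card (S ⧸ Subgroup.center S) = 16 := by
    have h := Subgroup.card_eq_card_quotient_mul_card_subgroup (Subgroup.center S)
    rw [hD, hc4] at h
    omega
  let ab : MulAut (S ⧸ Subgroup.center S) :=
    QuotientGroup.congr (Subgroup.center S) (Subgroup.center S) a
      (Subgroup.characteristic_iff_map_eq.1 inferInstance a)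
  have habk : ∀ g : S, ab (g : S ⧸ Subgroup.center S) = ((a g : S) : S ⧸ Subgroup.center S) :=
    fun g => rfl
  have hab5 : ∀ y, ab (ab (ab (ab (ab y)))) = y := fun y => by
    induction y using QuotientGroup.induction_on with
    | _ g => simp only [habk, ha]
  have habfix : ∀ y, ab y = y → y = 1 := by
    have h5 := card_fixed_five (fun y => ab y) hab5
    rw [hW] at h5
    have heq : {y // ab y = y} = ↥(MonoidHom.eqLocus ab.toMonoidHom (MonoidHom.id _)) := rfl
    have hd : Nat.card {y // ab y = y} ∣ 16 := by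
      rw [heq, ← hW]; exact Subgroup.card_subgroup_dvd_card _
    intro y hy
    rcases dvd_sixteen hd with e | e | e | e | e
    · haveI := (Nat.card_eq_one_iff_unique.1 e).1
      exact congrArg Subtype.val (Subsingleton.elim (⟨y, hy⟩ : {y // ab y = y}) ⟨1, map_one ab⟩)
    all_goals rw [e] at h5
    all_goals first | omega | skip
    exfalso
    have hall : ∀ g : S, g⁻¹ * a g ∈ Subgroup.center S := fun g => by
      have hbij := (Nat.bijective_iff_injective_and_card
        (Subtype.val : {y // ab y = y} → S ⧸ Subgroup.center S)).2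
        ⟨Subtype.val_injective, e.trans hW.symm⟩
      obtain ⟨⟨w, hw⟩, hwe : w = (g : S ⧸ Subgroup.center S)⟩ := hbij.2 g
      rw [hwe, habk] at hw
      exact QuotientGroup.eq.1 hw.symm
    obtain ⟨s, hs, hne⟩ := hnc
    set z : S := (⟨s, hs⟩ : S)⁻¹ * a ⟨s, hs⟩ with hz
    have h1 : a ⟨s, hs⟩ = ⟨s, hs⟩ * z := by rw [hz, mul_inv_cancel_left]
    have h2 : a z = z := haZ z (hall _)
    have h3 := ha ⟨s, hs⟩
    simp only [h1, map_mul, h2] at h3
    rw [mul_assoc, mul_assoc, mul_assoc, mul_assoc, mul_eq_left, hex z (hall _), mul_one,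
      hex z (hall _), mul_one] at h3
    rw [h3, mul_one] at h1
    have h4 := congrArg Subtype.val h1
    rw [MulAut.conjNormal_apply] at h4
    exact hne (mul_inv_eq_iff_eq_mul.1 h4)
  haveI : Nontrivial (S ⧸ Subgroup.center S) :=
    Finite.one_lt_card_iff_nontrivial.1 (by rw [hW]; norm_num)
  have hWp : IsPGroup 2 (S ⧸ Subgroup.center S) :=
    IsPGroup.of_card (p := 2) (n := 4) (hW.trans (by norm_num))
  have hWcomm : ∀ g h : S ⧸ Subgroup.center S, g * h = h * g := by
    have hcz : Subgroup.center (S ⧸ Subgroup.center S) = ⊤ := by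
      refine (invariant_bot_or_top hW ab hab5 habfix _ fun y hy => ?_).resolve_left
        (fun h => ?_)
      · rw [Subgroup.mem_center_iff] at hy ⊢
        intro k
        obtain ⟨k, rfl⟩ := ab.surjective k
        rw [← map_mul, ← map_mul, hy k]
      · haveI := hWp.center_nontrivial
        exact (Subgroup.nontrivial_iff_ne_bot _).1 this h
    intro g h
    exact Subgroup.mem_center_iff.1 (hcz ▸ Subgroup.mem_top h) g
  have hW2 : ∀ g : S ⧸ Subgroup.center S, g * g = 1 := by
    let U : Subgroup (S ⧸ Subgroup.center S) :=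
      { carrier := {g | g * g = 1}
        one_mem' := one_mul 1
        mul_mem' := fun {g h} hg hh => by
          show g * h * (g * h) = 1
          rw [mul_assoc, ← mul_assoc h, hWcomm h g, mul_assoc g h, ← mul_assoc,
            show g * g = 1 from hg, one_mul]
          exact hh
        inv_mem' := fun {g} hg => by
          show g⁻¹ * g⁻¹ = 1
          rw [← mul_inv_rev, show g * g = 1 from hg, inv_one] }
    have hU : U = ⊤ := by
      refine (invariant_bot_or_top hW ab hab5 habfix U fun y hy => ?_).resolve_left fun h => ?_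
      · show ab y * ab y = 1
        rw [← map_mul, show y * y = 1 from hy, map_one]
      · obtain ⟨y, hy⟩ := exists_prime_orderOf_dvd_card' (G := S ⧸ Subgroup.center S) 2
          (by rw [hW]; norm_num)
        have hyU : y ∈ U := by
          show y * y = 1
          rw [← sq, ← hy, pow_orderOf_eq_one]
        rw [h, Subgroup.mem_bot] at hyU
        rw [hyU, orderOf_one] at hy
        norm_num at hy
    exact fun g => show g ∈ U from hU ▸ Subgroup.mem_top g
  have hsq : ∀ g : S, g * g ∈ Subgroup.center S := fun g => by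
    rw [← QuotientGroup.eq_one_iff, QuotientGroup.mk_mul]; exact hW2 _
  -- the additive structure
  letI : CommGroup (S ⧸ Subgroup.center S) :=
    { (inferInstance : Group (S ⧸ Subgroup.center S)) with mul_comm := hWcomm }
  letI : Module (ZMod 2) (Additive (S ⧸ Subgroup.center S)) :=
    AddCommGroup.zmodModule fun y => by rw [two_nsmul]; exact hW2 y.toMul
  letI : Algebra (ZMod 2) F := ZMod.algebra F 2
  obtain ⟨ζu, hζu⟩ := exists_prime_orderOf_dvd_card' (G := Fˣ) 5 (by
    rw [Nat.card_eq_fintype_card, Fintype.card_units, hF]; norm_num)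
  set ζ : F := (ζu : F) with hζdef
  have hζ5 : ζ ^ 5 = 1 := by
    rw [hζdef, ← Units.val_pow_eq_pow_val, ← hζu, pow_orderOf_eq_one, Units.val_one]
  have hζ1 : ζ ≠ 1 := fun h => by
    rw [show ζu = 1 from Units.ext h, orderOf_one] at hζu
    norm_num at hζu
  let TF : F →+ F := AddMonoidHom.mulLeft ζ
  have hTF5 : ∀ u, TF (TF (TF (TF (TF u)))) = u := fun u => by
    show ζ * (ζ * (ζ * (ζ * (ζ * u)))) = u
    linear_combination u * hζ5
  have hTFfix : ∀ u, TF u = u → u = 0 := fun u hu => by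
    have hu' : ζ * u = u := hu
    have h0 : (ζ - 1) * u = 0 := by linear_combination hu'
    exact (mul_eq_zero.1 h0).resolve_left (sub_ne_zero.2 hζ1)
  let TW : Additive (S ⧸ Subgroup.center S) →+ Additive (S ⧸ Subgroup.center S) :=
    MonoidHom.toAdditive ab.toMonoidHom
  obtain ⟨w₀, hw₀⟩ := exists_ne (1 : S ⧸ Subgroup.center S)
  have hbF := ι_bijective (W := F) (by rw [Nat.card_eq_fintype_card, hF]; norm_num) TF hTF5 hTFfix
    (w := 1) one_ne_zero
  have hbW := ι_bijective (W := Additive (S ⧸ Subgroup.center S))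
    (by rw [← Nat.card_congr Additive.ofMul, hW]) TW (fun y => hab5 y) (fun y hy => habfix y hy)
    (w := Additive.ofMul w₀) hw₀
  let eF := AddEquiv.ofBijective _ hbF
  let eW := AddEquiv.ofBijective _ hbW
  let ρ : Additive (S ⧸ Subgroup.center S) ≃+ F := eW.symm.trans eF
  have hρ : ∀ y, ρ (TW y) = ζ * ρ y := fun y => by
    obtain ⟨c, rfl⟩ := eW.surjective y
    show eF (eW.symm (TW (ι TW (Additive.ofMul w₀) c))) = ζ * eF (eW.symm (eW c))
    rw [ι_equivariant TW (fun y => hab5 y) (fun y hy => habfix y hy)]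
    show eF (eW.symm (eW _)) = _
    rw [eW.symm_apply_apply, eW.symm_apply_apply]
    exact (ι_equivariant TF hTF5 hTFfix (1 : F) c).symm
  let πG : S →* Multiplicative F :=
    { toFun := fun g => Multiplicative.ofAdd (ρ (Additive.ofMul (g : S ⧸ Subgroup.center S)))
      map_one' := by rw [QuotientGroup.mk_one, ofMul_one, map_zero]; rfl
      map_mul' := fun g h => by rw [QuotientGroup.mk_mul, ofMul_mul, map_add]; rfl }
  let p : S → F := fun g => ρ (Additive.ofMul (g : S ⧸ Subgroup.center S))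
  have hp_mul : ∀ g h, p (g * h) = p g + p h := fun g h => by
    show ρ _ = _
    rw [QuotientGroup.mk_mul, ofMul_mul, map_add]
  have hp0 : ∀ g, p g = 0 ↔ g ∈ Subgroup.center S := fun g => by
    rw [← QuotientGroup.eq_one_iff]
    exact map_eq_zero_iff ρ ρ.injective
  have hp_surj : ∀ u, ∃ g, p g = u := fun u => by
    obtain ⟨y, rfl⟩ := ρ.surjective u
    obtain ⟨g, hg⟩ := QuotientGroup.mk'_surjective (Subgroup.center S) y.toMul
    exact ⟨g, congrArg ρ hg⟩
  choose sec hsec using hp_surj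
  have hwd : ∀ g h, p g = p h → g * g = h * h := fun g h e => by
    have hz : g⁻¹ * h ∈ Subgroup.center S := by
      rw [← hp0]
      have h1 := hp_mul g (g⁻¹ * h)
      rw [mul_inv_cancel_left, ← e] at h1
      linear_combination -h1
    have hk := Subgroup.mem_center_iff.1 hz g
    calc g * g = g * g * ((g⁻¹ * h) * (g⁻¹ * h)) := by rw [hex _ hz, mul_one]
      _ = g * (g⁻¹ * h * g) * (g⁻¹ * h) := by rw [← hk]; group
      _ = _ := by group
  obtain ⟨Q, hQ⟩ : ∃ Q : F → S, ∀ g, g * g = Q (p g) :=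
    ⟨fun u => sec u * sec u, fun g => hwd _ _ (hsec _).symm⟩
  have hQζ : ∀ u, Q (ζ * u) = Q u := fun u => by
    have h1 : p (a (sec u)) = ζ * u := by
      exact (hρ (Additive.ofMul ((sec u : S) : S ⧸ Subgroup.center S))).trans
        (congrArg (ζ * ·) (hsec u))
    rw [← h1, ← hQ, ← map_mul, haZ _ (hsq _), hQ, hsec]
  have hQN : ∀ u v, N 4 u = N 4 v → Q u = Q v := fun u v e => by
    simp only [N, ← pow_succ'] at e
    rcases eq_or_ne u 0 with rfl | hu
    · rw [zero_pow (by norm_num)] at e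
      rw [eq_zero_of_pow_eq_zero e.symm]
    have hprim : IsPrimitiveRoot ζ 5 := by
      rw [IsPrimitiveRoot.iff_def]
      refine ⟨hζ5, fun l hl => ?_⟩
      rw [← hζu]
      exact orderOf_dvd_of_pow_eq_one (Units.ext (by simpa using hl))
    haveI : NeZero (5 : ℕ) := ⟨by norm_num⟩
    obtain ⟨i, -, hi⟩ := hprim.eq_pow_of_pow_eq_one (ξ := v / u) (by
      rw [div_pow, ← e, div_self (pow_ne_zero _ hu)])
    have hv : v = ζ ^ i * u := by rw [hi, div_mul_cancel₀ _ hu]
    rw [hv]
    clear hi hv e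
    induction i with
    | zero => simp
    | succ i ih => rw [pow_succ', mul_assoc, hQζ]; exact ih
  choose r hr using fun c : Fx hF => N_surj hF c.2
  obtain ⟨L, hQL⟩ : ∃ L : Fx hF → S, ∀ u, Q u = L ⟨N 4 u, N_mem hF u⟩ :=
    ⟨fun c => Q (r c), fun u => hQN _ _ (hr ⟨N 4 u, N_mem hF u⟩).symm⟩
  have hid : ∀ u v w : F, Q (u + v + w) * Q u * Q v * Q w = Q (u + v) * Q (u + w) * Q (v + w) :=
    fun u v w => by
      have h := sq_mul_mul hsq hex (sec u) (sec v) (sec w)
      rw [hQ (sec u * sec v * sec w), hQ (sec u * sec v), hQ (sec u * sec w),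
        hQ (sec v * sec w), hQ (sec u), hQ (sec v), hQ (sec w), hp_mul, hp_mul, hp_mul, hp_mul, hsec, hsec,
        hsec] at h
      exact h
  have h2F := CharTwo.two_eq_zero (R := F)
  have hcyc : 1 + ζ + ζ ^ 2 + ζ ^ 3 + ζ ^ 4 = 0 := by
    have h : (ζ - 1) * (1 + ζ + ζ ^ 2 + ζ ^ 3 + ζ ^ 4) = 0 := by linear_combination hζ5
    exact (mul_eq_zero.1 h).resolve_left (sub_ne_zero.2 hζ1)
  have hQ0 : Q 0 = 1 := by
    have h := hQ (1 : S)
    rw [(hp0 1).2 (one_mem _), mul_one] at h
    exact h.symm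
  have hQz : ∀ u, Q u ∈ Subgroup.center S := fun u => by
    rw [← hsec u, ← hQ]; exact hsq _
  have hQQ : ∀ u, Q u * Q u = 1 := fun u => hex _ (hQz u)
  set α := ζ + ζ ^ 4 with hα
  set β := ζ ^ 2 + ζ ^ 3 with hβ
  have hNα : N 4 (1 + ζ) = α := by
    simp only [N, hα]; linear_combination (1 + ζ) * 0 + hζ5 +
      (2 * ζ + 3 * ζ ^ 2 + 5 * 0) * 0 + h2F * (2 * ζ + 5 * ζ ^ 2 + 5 * ζ ^ 3 + 2 * ζ ^ 4 + 1)
  have hNβ : N 4 (1 + ζ ^ 2) = β := by
    simp only [N, hβ]
    linear_combination (ζ ^ 5 + 1 + ζ ^ 3) * hζ5 +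
      h2F * (1 + 2 * ζ ^ 2 + 5 * ζ ^ 4 + 5 * ζ ^ 6 + 2 * ζ ^ 8)
  have e3 : Q (1 + ζ + ζ ^ 2) = Q (1 + ζ) := by
    rw [show (1 : F) + ζ + ζ ^ 2 = ζ * (ζ * (ζ * (1 + ζ))) by
      linear_combination hcyc - h2F * (ζ ^ 3 + ζ ^ 4), hQζ, hQζ, hQζ]
  have e4 : Q (ζ + ζ ^ 2) = Q (1 + ζ) := by
    rw [show ζ + ζ ^ 2 = ζ * (1 + ζ) by ring, hQζ]
  have hkey : Q (1 + ζ ^ 2) = Q (1 + ζ) * Q 1 := by
    have h := hid 1 ζ (ζ ^ 2)
    rw [e3, e4] at h
    have h1 : Q ζ = Q 1 := by rw [← hQζ 1, mul_one]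
    have h2 : Q (ζ ^ 2) = Q 1 := by rw [sq, hQζ, h1]
    rw [h1, h2, mul_assoc (Q (1 + ζ) * Q 1), hQQ, mul_one] at h
    have hc := Subgroup.mem_center_iff.1 (hQz (1 + ζ)) (Q (1 + ζ ^ 2))
    rw [mul_assoc (Q (1 + ζ)) (Q (1 + ζ ^ 2)), hc, ← mul_assoc, hQQ, one_mul] at h
    exact h.symm
  have h1F : (1 : F) ∈ Fx hF := one_pow 4
  have hαF : α ∈ Fx hF := hNα ▸ N_mem hF _
  have hβF : β ∈ Fx hF := hNβ ▸ N_mem hF _
  have hαβ : α + β = 1 := by rw [hα, hβ]; linear_combination hcyc - h2F * 1
  have hα0 : α ≠ 0 := by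
    rw [← hNα]
    have : (1 : F) + ζ ≠ 0 := fun h => hζ1 (eq_of_add_eq_zero h).symm
    exact mul_ne_zero this (pow_ne_zero _ this)
  have hβ0 : β ≠ 0 := by
    have : (1 : F) + ζ ^ 2 ≠ 0 := fun h => by
      have h' := (eq_of_add_eq_zero h).symm
      apply hζ1
      calc ζ = ζ * (ζ ^ 2) ^ 2 := by rw [h', one_pow, mul_one]
        _ = 1 := by rw [← hζ5]; ring
    rw [← hNβ]
    exact mul_ne_zero this (pow_ne_zero _ this)
  have hα1 : α ≠ 1 := fun h => hβ0 (by linear_combination hαβ - h)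
  have hall : ∀ c : Fx hF, (c : F) = 0 ∨ (c : F) = 1 ∨ (c : F) = α ∨ (c : F) = β := fun c => by
    have hm : α * β = 1 := by
      rw [hα, hβ]; linear_combination hcyc + (ζ + ζ ^ 2) * hζ5 - h2F * 1
    have h0 : ((c : F) * ((c : F) - 1)) * (((c : F) - α) * ((c : F) - β)) = 0 := by
      linear_combination (mem_Fx hF).1 c.2 + ((c : F) * ((c : F) - 1)) * hm -
        ((c : F) * ((c : F) - 1) * (c : F)) * hαβ + h2F * ((c : F) ^ 2 - (c : F) ^ 3)
    rcases mul_eq_zero.1 h0 with h | h <;> rcases mul_eq_zero.1 h with h | h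
    · exact Or.inl h
    · exact Or.inr (Or.inl (sub_eq_zero.1 h))
    · exact Or.inr (Or.inr (Or.inl (sub_eq_zero.1 h)))
    · exact Or.inr (Or.inr (Or.inr (sub_eq_zero.1 h)))
  have hL1 : L ⟨1, h1F⟩ = Q 1 := by
    rw [hQL]; exact congrArg L (Subtype.ext (by simp [N]))
  have hLα : L ⟨α, hαF⟩ = Q (1 + ζ) := by
    rw [hQL]; exact congrArg L (Subtype.ext hNα.symm)
  have hLβ : L ⟨β, hβF⟩ = Q (1 + ζ) * Q 1 := by
    rw [← hkey, hQL]; exact congrArg L (Subtype.ext hNβ.symm)
  have hL0 : L ⟨0, zero_mem _⟩ = 1 := by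
    rw [← hQ0, hQL]; exact congrArg L (Subtype.ext (by simp [N]))
  have hcomm : Q 1 * Q (1 + ζ) = Q (1 + ζ) * Q 1 :=
    Subgroup.mem_center_iff.1 (hQz _) _
  have t1 : Q (1 + ζ) * Q 1 * Q 1 = Q (1 + ζ) := by rw [mul_assoc, hQQ, mul_one]
  have t2 : Q 1 * (Q (1 + ζ) * Q 1) = Q (1 + ζ) := by rw [← mul_assoc, hcomm, t1]
  have t3 : Q (1 + ζ) * (Q (1 + ζ) * Q 1) = Q 1 := by rw [← mul_assoc, hQQ, one_mul]
  have t4 : Q (1 + ζ) * Q 1 * Q (1 + ζ) = Q 1 := by rw [mul_assoc, hcomm, t3]
  have t5 : Q (1 + ζ) * Q 1 * (Q (1 + ζ) * Q 1) = 1 := by rw [← mul_assoc, t4, hQQ]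
  have hLmul : ∀ c d : Fx hF, L (c + d) = L c * L d := by
    intro c d
    have s1 : (1 : F) + α = β := by linear_combination -hαβ + h2F * α
    have s2 : α + (1 : F) = β := by linear_combination -hαβ + h2F * α
    have s3 : (1 : F) + β = α := by linear_combination -hαβ + h2F * β
    have s4 : β + (1 : F) = α := by linear_combination -hαβ + h2F * β
    have s5 : β + α = (1 : F) := by linear_combination hαβ
    have hall' : ∀ e : Fx hF, e = ⟨0, zero_mem _⟩ ∨ e = ⟨1, h1F⟩ ∨ e = ⟨α, hαF⟩ ∨ e = ⟨β, hβF⟩ :=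
      fun e => (hall e).imp Subtype.ext (Or.imp Subtype.ext (Or.imp Subtype.ext Subtype.ext))
    rcases hall' c with rfl | rfl | rfl | rfl <;> rcases hall' d with rfl | rfl | rfl | rfl <;>
      simp only [AddMemClass.mk_add_mk, zero_add, add_zero, CharTwo.add_self_eq_zero, hαβ, s1, s2,
        s3, s4, s5, hL0, hL1, hLα, hLβ, one_mul, mul_one, hQQ, t1, t2, t3, t4, t5, hcomm]
  let iG : Multiplicative (Fx hF) →* S :=
    { toFun := fun c => L c.toAdd
      map_one' := hL0
      map_mul' := fun c d => hLmul _ _ }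
  have hLz : ∀ c, L c ∈ Subgroup.center S := fun c => by
    rw [show c = ⟨N 4 (r c), N_mem hF _⟩ from Subtype.ext (hr c).symm, ← hQL]
    exact hQz _
  have hZrange : iG.range ≤ Subgroup.center S := by
    rintro _ ⟨c, rfl⟩
    exact hLz _
  have hqr : ∀ g : S, g * g ∈ iG.range := fun g => by
    rw [hQ, hQL]; exact ⟨Multiplicative.ofAdd _, rfl⟩
  have hrange : Subgroup.center S ≤ iG.range := by
    haveI : iG.range.Normal := ⟨fun n hn g => by
      rw [Subgroup.mem_center_iff.1 (hZrange hn) g, mul_assoc, mul_inv_cancel, mul_one]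
      exact hn⟩
    have hexp : ∀ y : S ⧸ iG.range, y * y = 1 := fun y => by
      induction y using QuotientGroup.induction_on with
      | _ g => rw [← QuotientGroup.mk_mul, QuotientGroup.eq_one_iff]; exact hqr g
    letI : CommGroup (S ⧸ iG.range) :=
      { (inferInstance : Group (S ⧸ iG.range)) with
        mul_comm := fun g h => by
          have hi : ∀ y : S ⧸ iG.range, y⁻¹ = y := fun y => inv_eq_of_mul_eq_one_right (hexp y)
          rw [← hi (g * h), mul_inv_rev, hi, hi] }
    intro z hz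
    have hzA : ∀ g : G, g * (z : G) = (z : G) * g := by
      have hx' : ∀ i : ℤ, Commute (x ^ i) (z : G) := fun i => by
        refine Commute.zpow_left ?_ i
        have h := congrArg Subtype.val (haZ z hz)
        rw [MulAut.conjNormal_apply] at h
        exact mul_inv_eq_iff_eq_mul.1 h
      intro g
      have hsup : S ⊔ Subgroup.zpowers x = ⊤ := by
        refine Subgroup.eq_top_of_card_eq _ (le_antisymm (Subgroup.card_le_card_group _) ?_)
        rw [hG]
        refine Nat.le_of_dvd Nat.card_pos ?_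
        have h1 := Subgroup.card_dvd_of_le (le_sup_left : S ≤ S ⊔ Subgroup.zpowers x)
        have h2 := Subgroup.card_dvd_of_le
          (le_sup_right : Subgroup.zpowers x ≤ S ⊔ Subgroup.zpowers x)
        rw [hD] at h1
        rw [Nat.card_zpowers, hx] at h2
        exact Nat.Coprime.mul_dvd_of_dvd_of_dvd (by norm_num : Nat.Coprime 64 5) h1 h2
      obtain ⟨s, hs, _, ⟨i, rfl⟩, rfl⟩ :=
        Subgroup.mem_sup_of_normal_left.1 (hsup ▸ Subgroup.mem_top g)
      have hsz : s * (z : G) = (z : G) * s :=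
        congrArg Subtype.val (Subgroup.mem_center_iff.1 hz ⟨s, hs⟩)
      show s * x ^ i * (z : G) = (z : G) * (s * x ^ i)
      rw [mul_assoc, (hx' i).eq, ← mul_assoc, hsz, mul_assoc]
    let ϕ : S →* S ⧸ iG.range := QuotientGroup.mk' _
    have hidx : S.index = 5 := by
      have h := S.card_mul_index
      rw [hD, hG] at h
      omega
    have key : ∀ (k : ℕ) (g₀ : G), g₀⁻¹ * (z : G) ^ k * g₀ ∈ S →
        g₀⁻¹ * (z : G) ^ k * g₀ = (z : G) ^ k := fun k g₀ _ => by
      rw [mul_assoc, ← (show g₀ * (z : G) ^ k = (z : G) ^ k * g₀ from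
        ((show Commute g₀ (z : G) from hzA g₀).pow_right k).eq), inv_mul_cancel_left]
    have h := MonoidHom.transfer_eq_pow ϕ (z : G) key
    have hker : (z : G) ∈ (MonoidHom.transfer ϕ).ker :=
      Abelianization.commutator_subset_ker _ z.2
    rw [MonoidHom.mem_ker] at hker
    rw [hker] at h
    have h5 : (⟨(z : G) ^ S.index, MonoidHom.transfer_eq_pow_aux _ key⟩ : S) = z ^ 5 :=
      Subtype.ext (by
        rw [SubmonoidClass.coe_pow]; show (z : G) ^ S.index = _; rw [hidx])
    rw [h5] at h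
    have hz5 : z ^ 5 = z := by
      rw [show (5 : ℕ) = 2 + 2 + 1 from rfl, pow_succ, pow_add, sq, hex z hz, one_mul, one_mul]
    rw [hz5] at h
    exact (QuotientGroup.eq_one_iff z).1 h.symm
  have hrg : iG.range = Subgroup.center S := le_antisymm hZrange hrange
  have hinj : Function.Injective iG := by
    have h := MonoidHom.rangeRestrict_surjective iG
    haveI : Finite (Multiplicative (Fx hF)) := Finite.of_equiv _ Multiplicative.ofAdd
    have hb := (Nat.bijective_iff_surjective_and_card iG.rangeRestrict).2 ⟨h, by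
      rw [hrg, hc4, ← Nat.card_congr Multiplicative.ofAdd, card_Fx]⟩
    exact fun c d e => hb.1 (Subtype.ext e)
  -- the model
  haveI := HP.finite hF
  let iP : Multiplicative (Fx hF) →* P :=
    { toFun := fun c => ((HP.centerEquiv hF).symm c.toAdd : P)
      map_one' := by
        refine HP.ext ?_ ?_
        · rw [HP.fs_one]; exact (HP.mem_center hF).1 (SetLike.coe_mem _)
        · have h := congrArg Subtype.val ((HP.centerEquiv hF).apply_symm_apply 0)
          rw [HP.sn_one hF]
          exact h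
      map_mul' := fun c d => by
        refine HP.ext ?_ ?_
        · rw [HP.fs_mul, (HP.mem_center hF).1 (SetLike.coe_mem _),
            (HP.mem_center hF).1 (SetLike.coe_mem _), (HP.mem_center hF).1 (SetLike.coe_mem _),
            add_zero]
        · rw [HP.sn_mul, (HP.mem_center hF).1 ((HP.centerEquiv hF).symm d.toAdd).2, zero_mul,
            add_zero]
          have h1 := congrArg Subtype.val ((HP.centerEquiv hF).apply_symm_apply (c * d).toAdd)
          have h2 := congrArg Subtype.val ((HP.centerEquiv hF).apply_symm_apply c.toAdd)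
          have h3 := congrArg Subtype.val ((HP.centerEquiv hF).apply_symm_apply d.toAdd)
          exact h1.trans (congrArg₂ (· + ·) h2 h3).symm }
  refine SuzukiTwo.nonempty_mulEquiv_of_squares (M := Multiplicative F) (V := Multiplicative (Fx hF))
    πG HP.fsHom iG iP ?_ ?_ hinj ?_ ?_ ?_ ?_ ?_
    (fun m => Multiplicative.ofAdd ⟨N 4 m.toAdd, N_mem hF _⟩) ?_ ?_
  · exact fun m => ⟨sec m.toAdd, congrArg Multiplicative.ofAdd (hsec _)⟩
  · intro m
    obtain ⟨g, hg⟩ := HP.fs_surj hF m.toAdd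
    exact ⟨g, congrArg Multiplicative.ofAdd hg⟩
  · intro c d e
    exact (HP.centerEquiv hF).symm.injective (Subtype.ext e)
  · intro g
    rw [hrg, ← hp0]
    exact Multiplicative.ofAdd.apply_eq_iff_eq
  · intro g
    rw [← MonoidHom.mem_ker, HP.ker_fsHom hF]
    constructor
    · intro hg
      exact ⟨Multiplicative.ofAdd (HP.centerEquiv hF ⟨g, hg⟩),
        congrArg Subtype.val ((HP.centerEquiv hF).symm_apply_apply ⟨g, hg⟩)⟩
    · rintro ⟨c, rfl⟩
      exact SetLike.coe_mem _
  · exact fun c g => (Subgroup.mem_center_iff.1 (hLz _) g).symm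
  · exact fun c g => (Subgroup.mem_center_iff.1 (SetLike.coe_mem _) g).symm
  · exact fun g => (hQ g).trans (hQL _)
  · intro g
    have hg : g * g ∈ Subgroup.center P := (HP.mem_center hF).2 (HP.fs_sq hF g)
    have e : HP.centerEquiv hF ⟨g * g, hg⟩ = ⟨N 4 (HP.fs g), N_mem hF _⟩ :=
      Subtype.ext (HP.sn_sq hF g)
    show g * g = (((HP.centerEquiv hF).symm ⟨N 4 (HP.fs g), N_mem hF _⟩ : Subgroup.center P) : P)
    rw [← e, Equiv.symm_apply_apply]

end Cfsg.Agent.Lib.U3Sylow
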